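import Mathlib
import Cfsg.Agent.LocalEven.SylowIn

/-! Fusion in a Sylow 2-subgroup whose centre has index four. -/

set_option autoImplicit false
set_option linter.unusedSectionVars false

namespace Cfsg.Agent.ZI4

open Subgroup Cfsg.Agent.LocalEven

variable {G : Type*} [Group G] {P : Subgroup G} {z : G}

/-- The centre of `P`. -/
def Zc (P : Subgroup G) : Subgroup G := P ⊓ centralizer (P : Set G)

/-- The centralizer of `x` in `P`. -/
def Bx (P : Subgroup G) (x : G) : Subgroup G := P ⊓ centralizer {x}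

/-- The elements all of whose conjugates under `N(Bx P x)` are central in `P`. -/
def Cb (P : Subgroup G) (x : G) : Subgroup G := ⨅ n ∈ normalizer (Bx P x : Set G), cj n⁻¹ (Zc P)

theorem mem_Zc {a : G} : a ∈ Zc P ↔ a ∈ P ∧ ∀ x ∈ P, x * a = a * x := Iff.rfl

theorem mem_Bx {x u : G} : u ∈ Bx P x ↔ u ∈ P ∧ u * x = x * u := by
  rw [Bx, mem_inf, mem_centralizer_singleton_iff]

theorem mem_Cb {x a : G} :
    a ∈ Cb P x ↔ ∀ n ∈ normalizer (Bx P x : Set G), n * a * n⁻¹ ∈ Zc P := by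
  simp only [Cb, mem_iInf, mem_cj_inv]

theorem Zc_le {x : G} (hx : x ∈ P) : Zc P ≤ Bx P x := fun _ ha => mem_Bx.2 ⟨ha.1, (ha.2 x hx).symm⟩

theorem cj_Bx {m : G} (hm : m ∈ normalizer (P : Set G)) (x : G) :
    cj m (Bx P x) = Bx P (m * x * m⁻¹) := by
  rw [Bx, cj_inf, cj_centralizer_singleton, cj_eq_of_mem_normalizer hm, Bx]

theorem nZ {m a : G} (hm : m ∈ normalizer (P : Set G)) (ha : a ∈ Zc P) : m * a * m⁻¹ ∈ Zc P :=
  ⟨conj_mem_of_mem_normalizer hm ha.1,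
    conj_mem_of_mem_normalizer (normalizer_le_normalizer_centralizer P hm) ha.2⟩

theorem comm_of_Zc {x u : G} (hx : x ∈ P) (h : x⁻¹ * u ∈ Zc P) : u * x = x * u := by
  have := h.2 x hx
  rw [← mul_right_inj x⁻¹, ← mul_assoc, ← this]; group

/-- A Sylow 2-subgroup with centre of index four and derived group generated by `z`. -/
structure St (P : Subgroup G) (z : G) : Prop where
  syl : IsSylowIn 2 P ⊤
  zZ : z ∈ Zc P
  z1 : z ≠ 1
  z2 : z * z = 1
  ex : ∃ a ∈ P, ∃ b ∈ P, a * b = b * a * z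
  com : ∀ x ∈ P, ∀ y ∈ P, x * y = y * x ∨ x * y = y * x * z
  cos : ∀ x ∈ P, ∀ y ∈ P, x * y ≠ y * x → ∀ w ∈ P,
    w ∈ Zc P ∨ x⁻¹ * w ∈ Zc P ∨ y⁻¹ * w ∈ Zc P ∨ (x * y)⁻¹ * w ∈ Zc P

theorem cos_of_index (h : (center P).index = 4) : ∀ x ∈ P, ∀ y ∈ P, x * y ≠ y * x → ∀ w ∈ P,
    w ∈ Zc P ∨ x⁻¹ * w ∈ Zc P ∨ y⁻¹ * w ∈ Zc P ∨ (x * y)⁻¹ * w ∈ Zc P := by
  intro x hx y hy hxy w hw
  classical
  have key : ∀ {a b : G} (ha : a ∈ P) (hb : b ∈ P),
      ((⟨a, ha⟩ : P) : P ⧸ center P) = (⟨b, hb⟩ : P) ↔ a⁻¹ * b ∈ Zc P := fun ha hb => by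
    rw [QuotientGroup.eq, mem_center_iff]
    exact ⟨fun h => ⟨P.mul_mem (P.inv_mem ha) hb, fun g hg => congrArg Subtype.val (h ⟨g, hg⟩)⟩,
      fun h g => Subtype.ext (h.2 g g.2)⟩
  have : Finite (P ⧸ center P) := Nat.finite_of_card_ne_zero (by rw [← index, h]; norm_num)
  have := Fintype.ofFinite (P ⧸ center P)
  have hxy' := mul_mem hx hy
  have n1 : x ∉ Zc P := fun h => hxy (h.2 y hy).symm
  have n2 : y ∉ Zc P := fun h => hxy (h.2 x hx)
  have n3 : x * y ∉ Zc P := fun h => hxy (by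
    have := h.2 x hx
    rwa [mul_assoc, mul_right_inj] at this)
  have h1 : ({((⟨1, one_mem _⟩ : P) : P ⧸ center P), ((⟨x, hx⟩ : P) : P ⧸ center P),
      ((⟨y, hy⟩ : P) : P ⧸ center P), ((⟨x * y, hxy'⟩ : P) : P ⧸ center P)} : Finset _) = Finset.univ := by
    apply Finset.eq_univ_of_card
    rw [← Nat.card_eq_fintype_card, ← index, h, Finset.card_eq_four]
    refine ⟨_, _, _, _, ?_, ?_, ?_, ?_, ?_, ?_, rfl⟩ <;> rw [Ne, key]
    · simpa using n1
    · simpa using n2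
    · simpa using n3
    · exact fun h => hxy (comm_of_Zc hx h).symm
    · simpa using n2
    · exact fun h => n1 (by simpa [mul_assoc] using nZ (le_normalizer hy) h)
  have h2 := h1 ▸ Finset.mem_univ ((⟨w, hw⟩ : P) : P ⧸ center P)
  simp only [Finset.mem_insert, Finset.mem_singleton, eq_comm (a := ((⟨w, hw⟩ : P) : P ⧸ center P)),
    key, inv_one, one_mul] at h2
  exact h2

theorem exists_st (hP : IsSylowIn 2 P ⊤) (hna : ¬ IsMulCommutative P) (h : (center P).index = 4) :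
    ∃ z, St P z := by
  have hc := cos_of_index h
  obtain ⟨a, ha, b, hb, hab⟩ : ∃ a ∈ P, ∃ b ∈ P, a * b ≠ b * a := by
    by_contra h1
    push Not at h1
    exact hna ⟨⟨fun a b => Subtype.ext (h1 a a.2 b b.2)⟩⟩
  have n1 : a ∉ Zc P := fun h => hab (h.2 b hb).symm
  have n2 : b ∉ Zc P := fun h => hab (h.2 a ha)
  obtain ⟨z, hz⟩ : ∃ z, a * b = b * a * z := ⟨(b * a)⁻¹ * (a * b), by group⟩
  have hzZ : z ∈ Zc P := by
    rcases hc a ha b hb hab (b * a) (mul_mem hb ha) with h | h | h | h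
    · exact (hab (by simpa [← mul_assoc] using h.2 a ha)).elim
    · exact (n2 (by simpa [mul_assoc] using nZ (le_normalizer ha) h)).elim
    · exact (n1 (by simpa using h)).elim
    · rw [hz] at h
      simpa [mul_assoc] using inv_mem h
  have haa : a * a * b = b * (a * a) := by
    rcases hc a ha b hb hab (a * a) (mul_mem ha ha) with h | h | h | h
    · exact (h.2 b hb).symm
    · exact (n1 (by simpa using h)).elim
    · exact comm_of_Zc hb h
    · exact (hab (comm_of_Zc hb (by simpa [mul_assoc] using h))).elim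
  have z2 : z * z = 1 := by
    rw [mul_assoc, hz, ← mul_assoc, ← mul_assoc, hz, mul_assoc _ z, ← hzZ.2 a ha] at haa
    simpa [mul_assoc] using haa
  have sy : ∀ {x y : G}, x * y = y * x ∨ x * y = y * x * z → y * x = x * y ∨ y * x = x * y * z :=
    fun h => h.imp Eq.symm fun h => by rw [h, mul_assoc, z2, mul_one]
  have ml : ∀ {x u y : G}, u ∈ P → x * y = y * x ∨ x * y = y * x * z →
      u * y = y * u ∨ u * y = y * u * z → x * u * y = y * (x * u) ∨ x * u * y = y * (x * u) * z := by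
    rintro x u y hu (h | h) (h' | h') <;> rw [mul_assoc, h']
    · left; rw [← mul_assoc, h, mul_assoc]
    · right; rw [← mul_assoc, ← mul_assoc, h]; simp only [mul_assoc]
    · right; rw [← mul_assoc, h, mul_assoc _ z, ← hzZ.2 u hu]; simp only [mul_assoc]
    · left; rw [← mul_assoc, ← mul_assoc, h, mul_assoc _ z, ← hzZ.2 u hu]; simp only [mul_assoc, z2, mul_one]
  have all : ∀ y ∈ P, (a * y = y * a ∨ a * y = y * a * z) → (b * y = y * b ∨ b * y = y * b * z) →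
      ∀ x ∈ P, x * y = y * x ∨ x * y = y * x * z := fun y hy h1 h2 x hx => by
    rcases hc a ha b hb hab x hx with h | h | h | h
    · exact .inl (h.2 y hy).symm
    · simpa using ml h.1 h1 (.inl (h.2 y hy).symm)
    · simpa using ml h.1 h2 (.inl (h.2 y hy).symm)
    · have := ml h.1 (ml hb h1 h2) (.inl (h.2 y hy).symm)
      rwa [mul_inv_cancel_left] at this
  exact ⟨z, hP, hzZ, fun h => hab (by rw [hz, h, mul_one]), z2, ⟨a, ha, b, hb, hz⟩, fun x hx y hy =>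
    all y hy (sy (all a ha (.inl rfl) (sy (.inr hz)) y hy)) (sy (all b hb (.inr hz) (.inl rfl) y hy)) x hx, hc⟩

theorem inv_fix {g a : G} (h : g * a * g⁻¹ = a) : g⁻¹ * a * g = a := by
  rw [mul_assoc, inv_mul_eq_iff_eq_mul, eq_comm, ← mul_inv_eq_iff_eq_mul, h]

theorem exists_nc {x : G} (hx : x ∈ P) (hx' : x ∉ Zc P) : ∃ t ∈ P, t * x ≠ x * t := by
  by_contra h
  push Not at h
  exact hx' ⟨hx, h⟩

namespace St

variable (h : St P z)
include h

theorem cz {x : G} (hx : x ∈ P) : x * z = z * x := h.zZ.2 x hx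

theorem zP : z ∈ P := h.zZ.1

theorem ord : orderOf z = 2 := orderOf_eq_prime (by rw [sq, h.z2]) h.z1

theorem nc_mul {x u v : G} (hx : x ∈ P) (hu : u ∈ P) (hv : v ∈ P) (h1 : u * x ≠ x * u)
    (h2 : v * x ≠ x * v) : u * v * x = x * (u * v) := by
  rw [mul_assoc, (h.com v hv x hx).resolve_left h2, ← mul_assoc, ← mul_assoc,
    (h.com u hu x hx).resolve_left h1, mul_assoc _ z, ← h.cz hv]
  simp only [mul_assoc, h.z2, mul_one]

theorem sq {x : G} (hx : x ∈ P) : x * x ∈ Zc P := ⟨mul_mem hx hx, fun y hy => by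
  by_cases h1 : x * y = y * x
  · rw [← mul_assoc, ← h1, mul_assoc, ← h1, mul_assoc]
  · exact (h.nc_mul hy hx hx h1 h1).symm⟩

theorem bx {x u : G} (hx : x ∈ P) (hx' : x ∉ Zc P) (hu : u ∈ Bx P x) : u ∈ Zc P ∨ x⁻¹ * u ∈ Zc P := by
  obtain ⟨t, ht, h1⟩ := exists_nc hx hx'
  obtain ⟨hu, h2⟩ := mem_Bx.1 hu
  have key : ∀ s, s⁻¹ * u ∈ Zc P → s * x = x * s := fun s hs => by
    have h3 := hs.2 x hx
    rw [mul_assoc, h2, ← mul_assoc, ← mul_assoc, mul_left_inj] at h3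
    rw [← mul_right_inj s⁻¹, ← mul_assoc, ← mul_assoc, ← h3]; group
  rcases h.cos x hx t ht (Ne.symm h1) u hu with h3 | h3 | h3 | h3
  · exact .inl h3
  · exact .inr h3
  · exact (h1 (key t h3)).elim
  · exact (h1 (by simpa [mul_assoc] using key _ h3)).elim

theorem b_mul {x u v : G} (hx : x ∈ P) (hx' : x ∉ Zc P) (hu : u ∈ Bx P x) (hv : v ∈ Bx P x)
    (h1 : u ∉ Zc P) (h2 : v ∉ Zc P) : u * v ∈ Zc P := by
  have h3 := (h.bx hx hx' hu).resolve_left h1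
  have h4 := mul_mem (mul_mem (h.sq hx) h3) ((h.bx hx hx' hv).resolve_left h2)
  rwa [mul_assoc x, mul_inv_cancel_left, mul_assoc, ← mul_assoc u, ← mul_assoc, ← mul_assoc,
    ← (mem_Bx.1 hu).2, mul_assoc u, mul_inv_cancel, mul_one] at h4

theorem bcomm {x u v : G} (hx : x ∈ P) (hx' : x ∉ Zc P) (hu : u ∈ Bx P x) (hv : v ∈ Bx P x) :
    u * v = v * u := by
  rcases h.bx hx hx' hu with h1 | h1
  · exact (h1.2 v hv.1).symm
  · have h2 := h1.2 v hv.1
    rw [← mul_right_inj x⁻¹, ← mul_assoc, ← h2, ← mul_assoc, ← mul_assoc, mul_left_inj,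
      eq_inv_mul_iff_mul_eq, ← mul_assoc, ← (mem_Bx.1 hv).2, mul_inv_cancel_right]

theorem bx_eq {x y : G} (hx : x ∈ P) (hx' : x ∉ Zc P) (hy : y ∈ Bx P x) (hy' : y ∉ Zc P) :
    Bx P y = Bx P x :=
  le_antisymm (fun _ hu => mem_Bx.2 ⟨hu.1, h.bcomm hy.1 hy' hu (mem_Bx.2 ⟨hx, (mem_Bx.1 hy).2.symm⟩)⟩)
    fun _ hu => mem_Bx.2 ⟨hu.1, h.bcomm hx hx' hu hy⟩

theorem cj_or {t u : G} (ht : t ∈ P) (hu : u ∈ P) : t * u * t⁻¹ = u ∨ t * u * t⁻¹ = u * z :=
  (h.com t ht u hu).imp (fun h1 => by rw [h1, mul_inv_cancel_right]) fun h1 => by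
    rw [h1, mul_assoc u, h.cz ht, ← mul_assoc, mul_inv_cancel_right]

theorem le_nb {x : G} (hx : x ∈ P) : P ≤ normalizer (Bx P x : Set G) :=
  le_normalizer_of_cj_le fun t ht => cj_le_iff'.2 fun u hu => by
    rcases h.cj_or ht hu.1 with h1 | h1 <;> rw [h1]
    exacts [hu, mul_mem hu (Zc_le hx h.zZ)]

theorem nz {m : G} (hm : m ∈ normalizer (P : Set G)) : m * z * m⁻¹ = z := by
  obtain ⟨a, ha, b, hb, h1⟩ := h.ex
  have h2 : m * a * m⁻¹ * (m * b * m⁻¹) = m * b * m⁻¹ * (m * a * m⁻¹) * (m * z * m⁻¹) := by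
    rw [conj_mul, conj_mul, conj_mul, h1]
  rcases h.com _ (conj_mem_of_mem_normalizer hm ha) _ (conj_mem_of_mem_normalizer hm hb) with h3 | h3
  · rw [h3, left_eq_mul, conj_eq_one_iff] at h2
    exact (h.z1 h2).elim
  · exact mul_left_cancel (h2.symm.trans h3)

theorem idx {x : G} (hx : x ∈ P) (hx' : x ∉ Zc P) : (Bx P x).relIndex P = 2 := by
  obtain ⟨t, ht, h1⟩ := exists_nc hx hx'
  refine relIndex_eq_two_iff.2 ⟨t, ht, fun b hb => ?_⟩
  by_cases h2 : b * x = x * b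
  · exact .inr ⟨mem_Bx.2 ⟨hb, h2⟩, fun h3 => h1 (mem_Bx.1 ((mul_mem_cancel_left (mem_Bx.2 ⟨hb, h2⟩)).1 h3)).2⟩
  · exact .inl ⟨mem_Bx.2 ⟨mul_mem hb ht, h.nc_mul hx hb ht h2 h1⟩, fun h3 => h2 (mem_Bx.1 h3).2⟩

variable [Finite G]

theorem syl_cj (g : G) : IsSylowIn 2 (cj g P) ⊤ := by simpa only [cj_top] using h.syl.cj g

theorem conj_in {K : Subgroup G} {g : G} (h1 : P ≤ K) (h2 : cj g P ≤ K) :
    ∃ k ∈ K, k * g ∈ normalizer (P : Set G) := by
  obtain ⟨k, hk, h3⟩ := ((h.syl_cj g).mono h2 le_top).conj (h.syl.mono h1 le_top)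
  exact ⟨k, hk, cj_eq_self_iff.1 (by rw [cj_mul, h3])⟩

theorem cj_le_cent {a : G} (ha : a ∈ Zc P) (g : G) : cj g P ≤ centralizer {g * a * g⁻¹} := by
  rw [← cj_centralizer_singleton]
  exact cj_mono g fun x hx => mem_centralizer_singleton_iff.2 (ha.2 x hx)

theorem eq_z {g : G} (hg : g * z * g⁻¹ ∈ Zc P) : g * z * g⁻¹ = z := by
  obtain ⟨k, hk, h1⟩ := h.conj_in (fun x hx => mem_centralizer_singleton_iff.2 (hg.2 x hx))
    (h.cj_le_cent h.zZ g)
  refine Eq.trans ?_ (h.nz h1)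
  rw [← mul_inv_cancel_right (g * z * g⁻¹) k, ← mem_centralizer_singleton_iff.1 hk]
  group

theorem fus {a g : G} (ha : a ∈ Zc P) (hb : g * a * g⁻¹ ∈ P) (hb' : g * a * g⁻¹ ∉ Zc P) :
    ∃ x ∈ P, x ∉ Zc P ∧ a ∉ Cb P x := by
  obtain ⟨c, hc, h1⟩ := ((h.syl_cj g).mono (h.cj_le_cent ha g) le_top).exists_le_cj
    (Q := Bx P (g * a * g⁻¹)) (h.syl.pgrp.to_le inf_le_left) inf_le_right
  rw [cj_cj] at h1
  have h2 : (Bx P (g * a * g⁻¹)).relIndex (cj (c * g) P) = 2 := by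
    have h3 := card_mul_relIndex h1
    rw [card_cj, ← card_mul_relIndex (inf_le_left : Bx P (g * a * g⁻¹) ≤ P)] at h3
    exact (Nat.eq_of_mul_eq_mul_left Nat.card_pos h3).trans (h.idx hb hb')
  have := normal_of_index_eq_two h2
  obtain ⟨n, hn, hm⟩ := h.conj_in (h.le_nb hb) (le_normalizer_of_normal_subgroupOf h1)
  have h4 : c * (g * a * g⁻¹) * c⁻¹ = g * a * g⁻¹ := by
    rw [mem_centralizer_singleton_iff.1 hc, mul_inv_cancel_right]
  refine ⟨_, inv_conj_mem_of_mem_normalizer hm hb, fun h3 => hb' (by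
    simpa [mul_assoc] using nZ hm h3), fun h3 => hb' ?_⟩
  have h5 := mem_Cb.1 h3 ((n * (c * g))⁻¹ * n⁻¹ * (n * (c * g))) (by
    have := cj_Bx (inv_mem hm) (g * a * g⁻¹)
    rw [inv_inv] at this
    rw [← this, ← cj_normalizer, mem_cj_inv]
    simpa [mul_assoc] using hn)
  rw [← h4]
  simpa [mul_assoc] using nZ hm h5

theorem fixz {x n a : G} (hx : x ∈ P) (hn : n ∈ normalizer (Bx P x : Set G)) (hz : n * z * n⁻¹ = z)
    (ha : a ∈ Zc P) : n * a * n⁻¹ ∈ Zc P := by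
  have hzB := Zc_le hx h.zZ
  let K : Subgroup G :=
    { carrier := {g | g ∈ normalizer (Bx P x : Set G) ∧ g * z * g⁻¹ = z ∧
        ∀ u ∈ Bx P x, g * u * g⁻¹ = u ∨ g * u * g⁻¹ = u * z}
      one_mem' := ⟨one_mem _, by simp, fun u _ => .inl (by simp)⟩
      mul_mem' := by
        rintro g k ⟨g1, g2, g3⟩ ⟨k1, k2, k3⟩
        have e : ∀ u, g * k * u * (g * k)⁻¹ = g * (k * u * k⁻¹) * g⁻¹ := fun u => by group
        refine ⟨mul_mem g1 k1, by rw [e, k2, g2], fun u hu => ?_⟩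
        rcases k3 u hu with h1 | h1 <;> rw [e, h1]
        · exact g3 u hu
        · rw [← conj_mul, g2]
          exact (g3 u hu).symm.imp (fun h2 => by rw [h2, mul_assoc, h.z2, mul_one]) fun h2 => by rw [h2]
      inv_mem' := by
        rintro g ⟨g1, g2, g3⟩
        refine ⟨inv_mem g1, by rw [inv_inv, inv_fix g2], fun u hu => ?_⟩
        rw [inv_inv]
        refine (g3 _ (inv_conj_mem_of_mem_normalizer g1 hu)).imp (fun h1 => ?_) fun h1 => ?_
        · rw [← h1]; group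
        · rw [← mul_one (g⁻¹ * u * g), ← h.z2, ← mul_assoc, ← h1]; group }
  have hP : P ≤ K := fun t ht => ⟨h.le_nb hx ht, by rw [h.cz ht, mul_inv_cancel_right],
    fun u hu => h.cj_or ht hu.1⟩
  obtain ⟨k, hk, hm⟩ := h.conj_in hP (g := n) (cj_le_iff'.2 fun t ht => by
    have e : ∀ u, n * t * n⁻¹ * u * (n * t * n⁻¹)⁻¹ = n * (t * (n⁻¹ * u * n) * t⁻¹) * n⁻¹ :=
      fun u => by group
    refine ⟨mul_mem (mul_mem hn (h.le_nb hx ht)) (inv_mem hn), ?_, fun u hu => ?_⟩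
    · rw [e, inv_fix hz, (hP ht).2.1, hz]
    · rcases h.cj_or ht (inv_conj_mem_of_mem_normalizer hn hu).1 with h1 | h1 <;> rw [e, h1]
      · left; group
      · right; rw [← conj_mul, hz]; group)
  have h1 := nZ hm ha
  rcases (inv_mem hk : k⁻¹ ∈ K).2.2 _ (Zc_le hx h1) with h2 | h2
  · rwa [← h2, show k⁻¹ * (k * n * a * (k * n)⁻¹) * k⁻¹⁻¹ = n * a * n⁻¹ by group] at h1
  · have h3 := mul_mem h1 h.zZ
    rwa [← h2, show k⁻¹ * (k * n * a * (k * n)⁻¹) * k⁻¹⁻¹ = n * a * n⁻¹ by group] at h3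

theorem cb_all {x : G} (hx : x ∈ P) (hz : z ∈ Cb P x) : Zc P ≤ Cb P x := fun _ ha =>
  mem_Cb.2 fun n hn => h.fixz hx hn (h.eq_z (mem_Cb.1 hz n hn)) ha

theorem cb_or {x a : G} (hx : x ∈ P) (hx' : x ∉ Zc P) (ha : a ∈ Zc P) :
    a ∈ Cb P x ∨ a * z ∈ Cb P x := by
  by_cases hz : z ∈ Cb P x
  · exact .inl (h.cb_all hx hz ha)
  obtain ⟨m, hm, h1⟩ : ∃ m ∈ normalizer (Bx P x : Set G), m * z * m⁻¹ ∉ Zc P := by
    simpa only [mem_Cb, not_forall, exists_prop] using hz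
  have hzB := Zc_le hx h.zZ
  have hy := conj_mem_of_mem_normalizer hm hzB
  obtain ⟨t, ht, h2⟩ := exists_nc hy.1 h1
  have h3 : t * (m * z * m⁻¹) * t⁻¹ = m * z * m⁻¹ * z :=
    (h.cj_or ht hy.1).resolve_left fun h3 => h2 (mul_inv_eq_iff_eq_mul.1 h3)
  have key : ∀ a ∈ Zc P, m⁻¹ * a * m ∈ Zc P → a ∈ Cb P x := fun a ha h4 => mem_Cb.2 fun n hn => by
    have b1 := conj_mem_of_mem_normalizer hn hzB
    have b2 := conj_mem_of_mem_normalizer hn hy
    by_cases c1 : n * z * n⁻¹ ∈ Zc P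
    · exact h.fixz hx hn (h.eq_z c1) ha
    by_cases c2 : n * (m * z * m⁻¹) * n⁻¹ ∈ Zc P
    · simpa [mul_assoc] using h.fixz hx (mul_mem hn hm)
        (h.eq_z (by simpa [mul_assoc] using c2)) h4
    have c3 := h.b_mul hx hx' b2 b1 c2 c1
    rw [conj_mul, ← h3] at c3
    have c4 := h.fixz hx (mul_mem (mul_mem hn (h.le_nb hx ht)) hm)
      (h.eq_z (by simpa [mul_assoc] using c3)) h4
    rwa [show n * t * m * (m⁻¹ * a * m) * (n * t * m)⁻¹ = n * (t * a * t⁻¹) * n⁻¹ by group,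
      ha.2 t ht, mul_inv_cancel_right] at c4
  by_cases h4 : m⁻¹ * a * m ∈ Zc P
  · exact .inl (key a ha h4)
  refine .inr (key _ (mul_mem ha h.zZ) ?_)
  have h5 := h.b_mul hx hx' (inv_conj_mem_of_mem_normalizer hm (Zc_le hx ha))
    (inv_conj_mem_of_mem_normalizer hm hzB) h4 fun h5 => h1 (by
      have h6 := h.eq_z (g := m⁻¹) (by rwa [inv_inv])
      have h7 := inv_fix h6
      rw [inv_inv] at h7
      exact h7.symm ▸ h.zZ)
  simpa [mul_assoc] using h5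

end St

/-- The elements of the centre fused only to central elements. -/
def Wc (P : Subgroup G) : Subgroup G := Zc P ⊓ ⨅ x ∈ P, ⨅ _ : x ∉ Zc P, Cb P x

theorem mem_Wc {a : G} : a ∈ Wc P ↔ a ∈ Zc P ∧ ∀ x ∈ P, x ∉ Zc P → a ∈ Cb P x := by
  simp only [Wc, mem_inf, mem_iInf]

theorem St.cl [Finite G] (h : St P z) {a : G} (ha : a ∈ Wc P) (g : G) (hg : g * a * g⁻¹ ∈ P) :
    g * a * g⁻¹ ∈ Wc P := by
  have key : ∀ g, g * a * g⁻¹ ∈ P → g * a * g⁻¹ ∈ Zc P := fun g hg => by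
    by_contra h1
    obtain ⟨x, hx, hx', h2⟩ := h.fus ha.1 hg h1
    exact h2 ((mem_Wc.1 ha).2 x hx hx')
  refine mem_Wc.2 ⟨key g hg, fun x hx _ => mem_Cb.2 fun n hn => ?_⟩
  have h1 := (conj_mem_of_mem_normalizer hn (Zc_le hx (key g hg))).1
  have e : n * (g * a * g⁻¹) * n⁻¹ = n * g * a * (n * g)⁻¹ := by group
  rw [e] at h1 ⊢
  exact key _ h1

end Cfsg.Agent.ZI4
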